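import Cfsg.Agent.H389.JTwo

/-!
# Odd kernels of homomorphisms onto `J₁ × J₁` (helper389)

In the class `Cl` they are trivial.
-/

set_option autoImplicit false

namespace Cfsg.Agent.H389.JSq

open Subgroup
open Cfsg.Spor (J1)

universe u

/-- `map_centralizer` for a subgroup `H` with a homomorphism onto `J₁` -/
theorem map_centralizer' {X : Type*} [Group X] [Finite X] (hsq : ∀ x : X, ¬ 49 ∣ orderOf x)
    (H : Subgroup X) (g : H →* J1) (hg : Function.Surjective g) (hodd : Odd (Nat.card g.ker))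
    (V : Subgroup X) [hVn : V.Normal] (hVH : V ≤ H) (hV : ∀ a ∈ V, ∀ b ∈ V, a * b = b * a) {r : ℕ}
    (hr : Odd r) (hexp : ∀ v ∈ V, v ^ r = 1)
    (hN : ∀ x : H, orderOf x = 7 → g x ≠ 1 → ∀ v ∈ V, (v * (x : X)) ^ 7 = 1) (a : J1) :
    ∃ c : H, (∀ v ∈ V, Commute (c : X) v) ∧ g c = a := by
  have hn : (V.subgroupOf H).Normal := inferInstance
  have h1 := map_centralizer g (V.subgroupOf H) hg hodd
    (fun x => by rw [← Subgroup.orderOf_coe]; exact hsq x)
    (fun a ha b hb => Subtype.ext (hV a (mem_subgroupOf.mp ha) b (mem_subgroupOf.mp hb))) hr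
    (fun v hv => Subtype.ext (hexp v (mem_subgroupOf.mp hv)))
    (fun x hx hx1 v hv => Subtype.ext (hN x hx hx1 v (mem_subgroupOf.mp hv)))
  have h2 : a ∈ (centralizer ((V.subgroupOf H : Subgroup H) : Set H)).map g := by
    rw [h1]; exact mem_top a
  obtain ⟨c, hc, rfl⟩ := h2
  refine ⟨c, ?_, rfl⟩
  intro v hv
  have h3 := mem_centralizer_iff.mp hc ⟨v, hVH hv⟩ (mem_subgroupOf.mpr hv)
  exact (congrArg Subtype.val h3).symm

theorem num1 : ∀ r ∈ ({3, 19} : Finset ℕ), 7 * r * 11 ∉ om ∧ 7 * r * 10 ∉ om := by decide +kernel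
theorem num2 : ∀ r ∈ ({5, 11} : Finset ℕ), 7 * r * 19 ∉ om ∧ 7 * r * 6 ∉ om := by decide +kernel

/-- two commuting homomorphisms -/
theorem false_of_elem {X : Type*} [Group X] [Finite X] (hcl : Cl X) (f1 f2 : X →* J1)
    (hf : ∀ a b : J1, ∃ x : X, f1 x = a ∧ f2 x = b) (V : Subgroup X) [hVn : V.Normal]
    (hker : f1.ker ⊓ f2.ker = V) {r : ℕ} (hr : r.Prime) (hro : Odd r) (hV1 : V ≠ ⊥)
    (hVc : ∀ a ∈ V, ∀ b ∈ V, a * b = b * a) (hexp : ∀ v ∈ V, v ^ r = 1) : False := by
  have hV2 : V ≤ f2.ker := by rw [← hker]; exact inf_le_right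
  have hV1' : V ≤ f1.ker := by rw [← hker]; exact inf_le_left
  -- the homomorphisms on the kernels
  have hs1 : Function.Surjective (f1.comp f2.ker.subtype) := by
    intro a
    obtain ⟨x, hx1, hx2⟩ := hf a 1
    exact ⟨⟨x, hx2⟩, hx1⟩
  have hs2 : Function.Surjective (f2.comp f1.ker.subtype) := by
    intro a
    obtain ⟨x, hx1, hx2⟩ := hf 1 a
    exact ⟨⟨x, hx1⟩, hx2⟩
  obtain ⟨k, hk⟩ : ∃ k, Nat.card V = r ^ k := by
    have : Fact r.Prime := ⟨hr⟩
    exact IsPGroup.iff_card.mp (isPGroup_exp hexp)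
  have hVodd : Odd (Nat.card V) := by rw [hk]; exact hro.pow
  have hk1 : (f1.comp f2.ker.subtype).ker = V.subgroupOf f2.ker := by
    ext x
    rw [MonoidHom.mem_ker, mem_subgroupOf, ← hker, mem_inf]
    exact ⟨fun h => ⟨h, x.2⟩, fun h => h.1⟩
  have hk2 : (f2.comp f1.ker.subtype).ker = V.subgroupOf f1.ker := by
    ext x
    rw [MonoidHom.mem_ker, mem_subgroupOf, ← hker, mem_inf]
    exact ⟨fun h => ⟨x.2, h⟩, fun h => h.2⟩
  have hc1 : Nat.card (f1.comp f2.ker.subtype).ker = Nat.card V := by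
    rw [hk1]; exact Nat.card_congr (subgroupOfEquivOfLe hV2).toEquiv
  have hc2 : Nat.card (f2.comp f1.ker.subtype).ker = Nat.card V := by
    rw [hk2]; exact Nat.card_congr (subgroupOfEquivOfLe hV1').toEquiv
  obtain ⟨⟨v0, hv0⟩, hv01⟩ := Subgroup.ne_bot_iff_exists_ne_one.mp hV1
  have hv0ne : v0 ≠ 1 := by rintro rfl; exact hv01 rfl
  have hv0r := orderOf_exp hr hexp hv0 hv0ne
  by_cases h7 : r = 7
  · subst h7
    have hN : ∀ x : X, orderOf x = 7 → ∀ v ∈ V, (v * x) ^ 7 = 1 := by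
      intro x hx v hv
      have h1 : IsPGroup 7 (zpowers x) := H381.Tools.isPGroup_zpowers (by norm_num) hx
      have h2 : IsPGroup 7 ↥(V ⊔ zpowers x) :=
        IsPGroup.to_sup_of_normal_left (isPGroup_exp hexp) h1
      exact hcl.pow_eq_one (by norm_num) h2 (mul_mem_sup hv (mem_zpowers x))
    obtain ⟨a, ha⟩ : Has J1 11 := (H413.JOneSpec.exists_orderOf_iff 11).mpr (by decide)
    obtain ⟨b, hb⟩ : Has J1 19 := (H413.JOneSpec.exists_orderOf_iff 19).mpr (by decide)
    obtain ⟨c1, hc1V, hc1a⟩ := map_centralizer' hcl.sq f2.ker (f1.comp f2.ker.subtype) hs1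
      (by rw [hc1]; exact hVodd) V hV2 hVc hro hexp
      (fun x hx _ v hv => hN x (by rw [Subgroup.orderOf_coe, hx]) v hv) a
    obtain ⟨c2, hc2V, hc2b⟩ := map_centralizer' hcl.sq f1.ker (f2.comp f1.ker.subtype) hs2
      (by rw [hc2]; exact hVodd) V hV1' hVc hro hexp
      (fun x hx _ v hv => hN x (by rw [Subgroup.orderOf_coe, hx]) v hv) b
    have h1 : f1 ((c1 : X) * c2) = a := by
      rw [map_mul, (MonoidHom.mem_ker).mp c2.2, mul_one]; exact hc1a
    have h2 : f2 ((c1 : X) * c2) = b := by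
      rw [map_mul, (MonoidHom.mem_ker).mp c1.2, one_mul]; exact hc2b
    have h3 : 11 ∣ orderOf ((c1 : X) * c2) := by
      have := orderOf_map_dvd f1 ((c1 : X) * c2)
      rwa [h1, ha] at this
    have h4 : 19 ∣ orderOf ((c1 : X) * c2) := by
      have := orderOf_map_dvd f2 ((c1 : X) * c2)
      rwa [h2, hb] at this
    have h5 : (11 * 19) ∣ orderOf ((c1 : X) * c2) :=
      Nat.Coprime.mul_dvd_of_dvd_of_dvd (by norm_num) h3 h4
    have h6 := orderOf_pow_div' h5
    have h7 : Commute v0 ((c1 : X) * c2) := ((hc1V v0 hv0).mul_left (hc2V v0 hv0)).symm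
    have h8 := hcl.mul hv0r h6 (h7.pow_right _) (by norm_num)
    revert h8
    decide +kernel
  · -- an element of order 7 with fixed points
    have h7r : (7 : ℕ).Coprime (Nat.card V) := by
      rw [hk]; exact Nat.Coprime.pow_right _ ((Nat.coprime_primes (by norm_num) hr).mpr (Ne.symm h7))
    obtain ⟨x, hx, hx2, v, hv, hv1, hxv⟩ : ∃ x : X, orderOf x = 7 ∧ f2 x = 1 ∧
        ∃ v ∈ V, v ≠ 1 ∧ Commute x v := by
      by_contra hcon
      push Not at hcon
      have hN : ∀ x : f2.ker, orderOf x = 7 → (f1.comp f2.ker.subtype) x ≠ 1 → ∀ v ∈ V,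
          (v * (x : X)) ^ 7 = 1 := by
        intro x hx _ v hv
        have hx' : orderOf (x : X) = 7 := by rw [Subgroup.orderOf_coe, hx]
        by_contra h1
        obtain ⟨h2, h3⟩ := norm_comm V hVc (n := 7) (by rw [← hx']; exact pow_orderOf_eq_one _) hv
        exact hcon x hx' x.2 _ h2 h1 h3
      obtain ⟨a, ha⟩ : Has J1 7 := (H413.JOneSpec.exists_orderOf_iff 7).mpr (by decide)
      obtain ⟨c1, hc1V, hc1a⟩ := map_centralizer' hcl.sq f2.ker (f1.comp f2.ker.subtype) hs1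
        (by rw [hc1]; exact hVodd) V hV2 hVc hro hexp hN a
      obtain ⟨j, -, hj⟩ := exists_lift (f1.comp f2.ker.subtype) (g := c1) (n := 7)
        (by rw [hc1a, ha]) (by rw [hc1]; exact h7r)
      exact hcon ((c1 ^ j : f2.ker) : X) (by rw [Subgroup.orderOf_coe, hj]) (c1 ^ j).2 v0 hv0 hv0ne
        ((hc1V v0 hv0).pow_left j)
    -- the centralizer of `x` in the kernel of `f1`
    have hx7 : (7 : ℕ).Coprime (Nat.card (f1.prod f2).ker) := by
      have : (f1.prod f2).ker = V := by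
        rw [← hker]
        ext y
        rw [MonoidHom.mem_ker, mem_inf, MonoidHom.mem_ker, MonoidHom.mem_ker, MonoidHom.prod_apply,
          Prod.mk_eq_one]
      rw [this]; exact h7r
    have hkerV : ∀ y : X, y ∈ (f1.prod f2).ker → y ∈ V := by
      intro y hy
      rw [MonoidHom.mem_ker, MonoidHom.prod_apply, Prod.mk_eq_one] at hy
      rw [← hker]
      exact ⟨hy.1, hy.2⟩
    set C : Subgroup X := centralizer {x} ⊓ f1.ker with hC
    have hgs : Function.Surjective (f2.comp C.subtype) := by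
      intro b
      obtain ⟨z, hz1, hz2⟩ := hf 1 b
      obtain ⟨n, hn, hnc⟩ := exists_comm_lift (f1.prod f2) (a := x) (g := z) (by rw [hx]; exact hx7) (by
        show _ * _ = _ * _
        rw [MonoidHom.prod_apply, MonoidHom.prod_apply, hx2, hz1, Prod.mk_mul_mk, Prod.mk_mul_mk,
          one_mul, mul_one, mul_one, one_mul])
      rw [MonoidHom.mem_ker, MonoidHom.prod_apply, Prod.mk_eq_one] at hn
      refine ⟨⟨n * z, ⟨H381.Tools.mem_cent_iff.mpr hnc, ?_⟩⟩, ?_⟩
      · show f1 (n * z) = 1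
        rw [map_mul, hn.1, hz1, mul_one]
      · show f2 (n * z) = b
        rw [map_mul, hn.2, hz2, one_mul]
    have hgk : ∀ y : C, y ∈ (f2.comp C.subtype).ker → (y : X) ∈ V := by
      intro y hy
      rw [← hker]
      exact ⟨y.2.2, hy⟩
    have hgk1 : (f2.comp C.subtype).ker ≠ ⊥ := by
      intro h
      have h1 : (⟨v, ⟨H381.Tools.mem_cent_iff.mpr hxv, hV1' hv⟩⟩ : C) ∈ (f2.comp C.subtype).ker :=
        hV2 hv
      rw [h, mem_bot] at h1
      exact hv1 (congrArg Subtype.val h1)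
    have hgc : ∀ a ∈ (f2.comp C.subtype).ker, ∀ b ∈ (f2.comp C.subtype).ker, a * b = b * a :=
      fun a ha b hb => Subtype.ext (hVc a (hgk a ha) b (hgk b hb))
    have hge : ∀ a ∈ (f2.comp C.subtype).ker, a ^ r = 1 :=
      fun a ha => Subtype.ext (hexp a (hgk a ha))
    have hrc : (7 : ℕ).Coprime r := (Nat.coprime_primes (by norm_num) hr).mpr (Ne.symm h7)
    -- the final contradiction
    have fin : ∀ {p m : ℕ}, (Nat.Coprime 7 p) → (Nat.Coprime 7 m) → r.Coprime p → r.Coprime m →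
        7 * r * p ∉ om → 7 * r * m ∉ om →
        ∀ u ∈ (f2.comp C.subtype).ker, u ≠ 1 → ((∃ y : C, orderOf y = p ∧ Commute y u) ∨
          ∃ w : C, orderOf w = m ∧ Commute w u) → False := by
      intro p m h7p h7m hrp hrm hp hm u hu hu1 h
      have hur : orderOf (u : X) = r := orderOf_exp hr hexp (hgk u hu) (by
        intro h
        exact hu1 (Subtype.ext h))
      have hxu : Commute x u := H381.Tools.mem_cent_iff.mp u.2.1
      rcases h with ⟨y, hy, hyu⟩ | ⟨y, hy, hyu⟩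
      · exact hp (hcl.mul3 hx hur (by rw [Subgroup.orderOf_coe, hy]) hxu
          (H381.Tools.mem_cent_iff.mp y.2.1) (congrArg Subtype.val hyu.symm.eq) hrc h7p hrp)
      · exact hm (hcl.mul3 hx hur (by rw [Subgroup.orderOf_coe, hy]) hxu
          (H381.Tools.mem_cent_iff.mp y.2.1) (congrArg Subtype.val hyu.symm.eq) hrc h7m hrm)
    have hrs : r ∈ ({3, 19} : Finset ℕ) ∨ r ∈ ({5, 11} : Finset ℕ) := by
      have h1 : r ∣ Nat.card X := by rw [← hv0r]; exact orderOf_dvd_natCard v0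
      have h2 := hcl.prime_dvd hr h1
      rcases h2 with rfl | rfl | rfl | rfl | rfl | rfl
      · exact absurd hro (by decide)
      · left; decide
      · right; decide
      · exact absurd rfl h7
      · right; decide
      · left; decide
    rcases hrs with h | h
    · obtain ⟨hp, hm⟩ := num1 r h
      have h3 : r ≠ 11 ∧ ¬ r ∣ 10 ∧ r.Coprime 10 := by
        rw [Finset.mem_insert, Finset.mem_singleton] at h
        rcases h with rfl | rfl <;> norm_num
      obtain ⟨yb, wb, hyb, hwb, hwy⟩ := JFacts.frob_eleven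
      obtain ⟨u, hu, hu1, h4⟩ := lemK (f2.comp C.subtype) hgs hgk1 hgc hr hge (Or.inl rfl) hyb hwb
        (by norm_num) (by norm_num) hwy h3.1.symm h3.2.1
      exact fin (by norm_num) (by norm_num) ((Nat.coprime_primes hr (by norm_num)).mpr h3.1) h3.2.2
        hp hm u hu hu1 h4
    · obtain ⟨hp, hm⟩ := num2 r h
      have h3 : r ≠ 19 ∧ ¬ r ∣ 6 ∧ r.Coprime 6 := by
        rw [Finset.mem_insert, Finset.mem_singleton] at h
        rcases h with rfl | rfl <;> norm_num
      obtain ⟨yb, wb, hyb, hwb, hwy⟩ := JFacts.frob_nineteen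
      obtain ⟨u, hu, hu1, h4⟩ := lemK (f2.comp C.subtype) hgs hgk1 hgc hr hge (Or.inr rfl) hyb hwb
        (by norm_num) (by norm_num) hwy h3.1.symm h3.2.1
      exact fin (by norm_num) (by norm_num) ((Nat.coprime_primes hr (by norm_num)).mpr h3.1) h3.2.2
        hp hm u hu hu1 h4

theorem ker_eq_bot_aux (n : ℕ) : ∀ (X : Type u) [Group X] [Finite X], Nat.card X = n → Cl X →
    ∀ f : X →* J1 × J1, Function.Surjective f → Odd (Nat.card f.ker) → Group.IsSolvable f.ker →
    f.ker = ⊥ := by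
  induction n using Nat.strong_induction_on with
  | _ n ih =>
  intro X _ _ hn hcl f hf hodd hsol
  by_contra hker1
  obtain ⟨V, r, hr, hVn, hVK, hV1, hVc, hexp⟩ := exists_elem f.ker hsol hker1
  have hro : Odd r := by
    obtain ⟨⟨v, hv⟩, hv1⟩ := Subgroup.ne_bot_iff_exists_ne_one.mp hV1
    have h1 : orderOf v = r := orderOf_exp hr hexp hv (by
      rintro rfl
      exact hv1 rfl)
    have h2 : r ∣ Nat.card f.ker := by
      rw [← h1]; exact Subgroup.orderOf_dvd_natCard _ (hVK hv)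
    exact hodd.of_dvd_nat h2
  obtain ⟨h1, h2⟩ := quot_facts f hf V hVK
  have h4 : Odd (Nat.card (QuotientGroup.lift V f hVK).ker) := by
    rw [h2] at hodd
    exact (Nat.odd_mul.mp hodd).1
  have h5 := ih _ (by rw [← hn]; exact card_quot_lt V hV1) (X ⧸ V) rfl
    (hcl.quotient V) _ h1 h4 (solvable_ker_lift f V hVK hsol)
  rw [h5, Subgroup.card_bot, one_mul] at h2
  have hVker : V = f.ker := Subgroup.eq_of_le_of_card_ge hVK h2.le
  refine false_of_elem hcl ((MonoidHom.fst J1 J1).comp f) ((MonoidHom.snd J1 J1).comp f) ?_ V ?_ hr hro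
    hV1 hVc hexp
  · intro a b
    obtain ⟨x, hx⟩ := hf (a, b)
    exact ⟨x, by rw [MonoidHom.comp_apply, hx]; rfl, by rw [MonoidHom.comp_apply, hx]; rfl⟩
  · rw [hVker]
    ext y
    rw [mem_inf, MonoidHom.mem_ker, MonoidHom.mem_ker, MonoidHom.mem_ker, MonoidHom.comp_apply,
      MonoidHom.comp_apply, Prod.ext_iff]
    rfl

/-- **the kernel of a homomorphism onto `J₁ × J₁`** of a group in the class `Cl` is trivial if its order
is odd -/
theorem ker_eq_bot {X : Type u} [Group X] [Finite X] (hcl : Cl X) (f : X →* J1 × J1)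
    (hf : Function.Surjective f) (hodd : Odd (Nat.card f.ker)) (hsol : Group.IsSolvable f.ker) :
    f.ker = ⊥ :=
  ker_eq_bot_aux _ X rfl hcl f hf hodd hsol

end Cfsg.Agent.H389.JSq
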