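import Mathlib

/-!
# A norm argument for Frobenius groups (helper389)

`prod_eq`: `A` a finite subgroup of `F` normalised by `x`, no nontrivial power of `x` commutes with a nontrivial
element of `A`; `F` acts on the abelian group `V` such that the norm of `x` is trivial. Then `v ^ |A|` is
the product of the `A`-translates of `v`.
-/

set_option autoImplicit false

namespace Cfsg.Agent.H389.Part

open Finset

variable {F V : Type*} [Group F] [CommGroup V]

/-- the map `a ↦ a (b a⁻¹ b⁻¹)` -/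
theorem bij {A : Subgroup F} [Finite A] {b : F} (hb : ∀ a ∈ A, b * a * b⁻¹ ∈ A)
    (hfree : ∀ a ∈ A, b * a * b⁻¹ = a → a = 1) :
    Function.Bijective (fun a : A => (⟨a * (b * (a : F)⁻¹ * b⁻¹),
      A.mul_mem a.2 (hb _ (A.inv_mem a.2))⟩ : A)) := by
  apply Finite.injective_iff_bijective.mp
  intro a a' h
  have h1 : (a : F) * (b * (a : F)⁻¹ * b⁻¹) = a' * (b * (a' : F)⁻¹ * b⁻¹) := congrArg Subtype.val h
  have h2 : b * ((a' : F)⁻¹ * a) * b⁻¹ = (a' : F)⁻¹ * a := by
    have h3 : (a : F) * b * (a : F)⁻¹ = a' * b * (a' : F)⁻¹ := by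
      calc (a : F) * b * (a : F)⁻¹ = (a : F) * (b * (a : F)⁻¹ * b⁻¹) * b := by group
        _ = a' * (b * (a' : F)⁻¹ * b⁻¹) * b := by rw [h1]
        _ = a' * b * (a' : F)⁻¹ := by group
    calc b * ((a' : F)⁻¹ * a) * b⁻¹ = (a' : F)⁻¹ * (a' * b * (a' : F)⁻¹) * a * b⁻¹ := by group
      _ = (a' : F)⁻¹ * (a * b * (a : F)⁻¹) * a * b⁻¹ := by rw [h3]
      _ = (a' : F)⁻¹ * a := by group
  have h4 := hfree _ (A.mul_mem (A.inv_mem a'.2) a.2) h2
  exact Subtype.ext (inv_mul_eq_one.mp h4).symm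

theorem prod_eq (φ : F →* MulAut V) (A : Subgroup F) [Fintype A] {x : F} {n : ℕ} (hn : 0 < n)
    (hxA : ∀ a ∈ A, x * a * x⁻¹ ∈ A)
    (hfree : ∀ i, 0 < i → i < n → ∀ a ∈ A, x ^ i * a * (x ^ i)⁻¹ = a → a = 1)
    (hN : ∀ v, ∏ i ∈ range n, φ (x ^ i) v = 1) (v : V) :
    v ^ Fintype.card A = ∏ a : A, φ a v := by
  obtain ⟨m, rfl⟩ : ∃ m, n = m + 1 := ⟨n - 1, by omega⟩
  have hpow : ∀ i : ℕ, ∀ a ∈ A, x ^ i * a * (x ^ i)⁻¹ ∈ A := by
    intro i
    induction i with
    | zero => intro a ha; simpa using ha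
    | succ k ih =>
      intro a ha
      have h1 := ih _ (hxA a ha)
      have h2 : x ^ (k + 1) * a * (x ^ (k + 1))⁻¹ = x ^ k * (x * a * x⁻¹) * (x ^ k)⁻¹ := by
        rw [pow_succ]; group
      rw [h2]; exact h1
  -- two products
  have e1 : ∏ a : A, ∏ i ∈ range (m + 1), φ ((a : F) * x ^ i) v = 1 := by
    apply Finset.prod_eq_one
    intro a _
    have h1 : ∏ i ∈ range (m + 1), φ ((a : F) * x ^ i) v = φ a (∏ i ∈ range (m + 1), φ (x ^ i) v) := by
      rw [map_prod]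
      apply Finset.prod_congr rfl
      intro i _
      rw [map_mul, MulAut.mul_apply]
    rw [h1, hN, map_one]
  have e2 : ∏ a : A, ∏ i ∈ range (m + 1), φ ((a : F) * x ^ i * (a : F)⁻¹) v = 1 := by
    apply Finset.prod_eq_one
    intro a _
    have h1 : ∏ i ∈ range (m + 1), φ ((a : F) * x ^ i * (a : F)⁻¹) v =
        φ a (∏ i ∈ range (m + 1), φ (x ^ i) (φ (a : F)⁻¹ v)) := by
      rw [map_prod]
      apply Finset.prod_congr rfl
      intro i _
      rw [map_mul, map_mul, MulAut.mul_apply, MulAut.mul_apply]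
    rw [h1, hN, map_one]
  rw [Finset.prod_comm, Finset.prod_range_succ'] at e1 e2
  have e3 : ∏ a : A, φ ((a : F) * x ^ 0) v = ∏ a : A, φ a v := by
    apply Finset.prod_congr rfl
    intro a _
    rw [pow_zero, mul_one]
  have e4 : ∏ a : A, φ ((a : F) * x ^ 0 * (a : F)⁻¹) v = v ^ Fintype.card A := by
    rw [← Finset.card_univ, ← Finset.prod_const]
    apply Finset.prod_congr rfl
    intro a _
    rw [pow_zero, mul_one, mul_inv_cancel, map_one, MulAut.one_apply]
  have e5 : ∏ i ∈ range m, ∏ a : A, φ ((a : F) * x ^ (i + 1)) v =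
      ∏ i ∈ range m, ∏ a : A, φ ((a : F) * x ^ (i + 1) * (a : F)⁻¹) v := by
    apply Finset.prod_congr rfl
    intro i hi
    rw [Finset.mem_range] at hi
    have hb := bij (A := A) (b := x ^ (i + 1)) (hpow (i + 1))
      (hfree (i + 1) (by omega) (by omega))
    symm
    apply Fintype.prod_bijective _ hb
    intro a
    congr 2
    show (a : F) * x ^ (i + 1) * (a : F)⁻¹ = (a : F) * (x ^ (i + 1) * (a : F)⁻¹ * (x ^ (i + 1))⁻¹) * x ^ (i + 1)
    group
  rw [e3, e5] at e1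
  rw [e4] at e2
  exact mul_left_cancel (e2.trans e1.symm)

end Cfsg.Agent.H389.Part
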